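import Cfsg.Agent.H884.An.Defs

/-!
# S3509, alternating socle: restriction lemmas (helper884)
-/

set_option autoImplicit false
set_option linter.unusedSectionVars false
set_option linter.style.haveILetI false

namespace Cfsg.Agent.H884.An

open Equiv Equiv.Perm
open scoped commutatorElement

variable {α : Type*} [Fintype α] [DecidableEq α]

/-- conjugate subgroup `{u | t⁻¹ u t ∈ H}` -/
def cjg (t : Perm α) (H : Subgroup (Perm α)) : Subgroup (Perm α) := H.comap (MulAut.conj t⁻¹).toMonoidHom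

theorem mem_cjg {t u : Perm α} {H : Subgroup (Perm α)} : u ∈ cjg t H ↔ t⁻¹ * u * t ∈ H := by
  rw [cjg, Subgroup.mem_comap]
  change t⁻¹ * u * t⁻¹⁻¹ ∈ H ↔ _
  rw [inv_inv]

theorem isThree_conj {σ : Perm α} (h : σ.IsThreeCycle) (t : Perm α) : (t * σ * t⁻¹).IsThreeCycle := by
  have h1 : (t * σ * t⁻¹).cycleType = σ.cycleType := cycleType_conj
  exact h1.trans h

theorem n3_cjg {t : Perm α} {H : Subgroup (Perm α)} (h : N3 H) : N3 (cjg t H) := by
  intro σ hσ h3
  have h1 : (cjg t H).map (MulAut.conj t⁻¹).toMonoidHom ≤ H := Subgroup.map_comap_le _ _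
  have h2 : (MulAut.conj t⁻¹).toMonoidHom σ ∈ (⁅H, H⁆ : Subgroup (Perm α)) := by
    have h4 : (MulAut.conj t⁻¹).toMonoidHom σ ∈ (⁅cjg t H, cjg t H⁆ : Subgroup (Perm α)).map
        (MulAut.conj t⁻¹).toMonoidHom := Subgroup.mem_map_of_mem _ hσ
    rw [Subgroup.map_commutator] at h4
    exact Subgroup.commutator_mono h1 h1 h4
  exact h _ h2 (isThree_conj h3 t⁻¹)

/-- the alternating group has 3-cycles in its derived subgroup -/
theorem not_n3_of_le (h5 : 5 ≤ Fintype.card α) {H : Subgroup (Perm α)} (hA : alternatingGroup α ≤ H) : ¬ N3 H := by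
  intro hN
  have h1 : 2 < (Finset.univ : Finset α).card := by rw [Finset.card_univ]; omega
  obtain ⟨a, b, c, -, -, -, hab, hac, hbc⟩ := Finset.two_lt_card_iff.1 h1
  have h3 : (swap b a * swap b c).IsThreeCycle := isThreeCycle_swap_mul_swap_same hab.symm hbc hac
  have h2 : (⁅alternatingGroup α, alternatingGroup α⁆ : Subgroup (Perm α)) = alternatingGroup α :=
    commutator_alternatingGroup_eq_self (by rw [Nat.card_eq_fintype_card]; exact h5)
  refine hN _ (Subgroup.commutator_mono hA hA ?_) h3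
  rw [h2]
  exact h3.mem_alternatingGroup

/-- **L0** -/
theorem exists_not_mem (h5 : 5 ≤ Fintype.card α) {x : Perm α} (hx : x ≠ 1) {H : Subgroup (Perm α)} (hN : N3 H) :
    ∃ t ∈ alternatingGroup α, t⁻¹ * x * t ∉ H := by
  by_contra hcon
  push Not at hcon
  -- the normal subgroup
  let C : Subgroup (alternatingGroup α) :=
    { carrier := {y | ∀ t ∈ alternatingGroup α, t⁻¹ * (y : Perm α) * t ∈ H}
      one_mem' := by
        intro t _
        simp [H.one_mem]
      mul_mem' := by
        intro y z hy hz t ht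
        have h1 := H.mul_mem (hy t ht) (hz t ht)
        have h2 : t⁻¹ * (y : Perm α) * t * (t⁻¹ * (z : Perm α) * t) = t⁻¹ * ((y * z : alternatingGroup α) : Perm α) * t := by
          rw [Subgroup.coe_mul]; group
        rwa [h2] at h1
      inv_mem' := by
        intro y hy t ht
        have h1 := H.inv_mem (hy t ht)
        have h2 : (t⁻¹ * (y : Perm α) * t)⁻¹ = t⁻¹ * ((y⁻¹ : alternatingGroup α) : Perm α) * t := by
          rw [Subgroup.coe_inv]; group
        rwa [h2] at h1 }
  have hCn : C.Normal := by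
    refine ⟨fun y hy g t ht => ?_⟩
    have h1 := hy ((g : Perm α)⁻¹ * t) (mul_mem (inv_mem g.2) ht)
    have h2 : ((g : Perm α)⁻¹ * t)⁻¹ * (y : Perm α) * ((g : Perm α)⁻¹ * t) =
        t⁻¹ * ((g * y * g⁻¹ : alternatingGroup α) : Perm α) * t := by
      rw [Subgroup.coe_mul, Subgroup.coe_mul, Subgroup.coe_inv]; group
    rwa [h2] at h1
  haveI : IsSimpleGroup (alternatingGroup α) := alternatingGroup.isSimpleGroup (by
    rw [Nat.card_eq_fintype_card]; exact h5)
  rcases hCn.eq_bot_or_eq_top with hC | hC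
  · -- a point moved by `x`
    obtain ⟨a, ha⟩ : ∃ a, x a ≠ a := by
      by_contra h
      push Not at h
      exact hx (Equiv.ext h)
    have h1 : 2 < (Finset.univ \ {a, x a} : Finset α).card := by
      rw [Finset.card_univ_sdiff]
      have := Finset.card_le_two (a := a) (b := x a)
      omega
    obtain ⟨b, c, -, hb, hc, -, hbc, -, -⟩ := Finset.two_lt_card_iff.1 h1
    simp only [Finset.mem_sdiff, Finset.mem_univ, true_and, Finset.mem_insert, Finset.mem_singleton, not_or] at hb hc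
    have h3 : (swap a b * swap a c).IsThreeCycle := isThreeCycle_swap_mul_swap_same (Ne.symm hb.1) (Ne.symm hc.1) hbc
    have ht := h3.mem_alternatingGroup
    set t := swap a b * swap a c with htd
    have hmem : (⟨x * t * x⁻¹ * t⁻¹, by
        rw [mem_alternatingGroup] at ht ⊢
        simp [ht]⟩ : alternatingGroup α) ∈ C := by
      intro s hs
      change s⁻¹ * (x * t * x⁻¹ * t⁻¹) * s ∈ H
      have h4 := H.mul_mem (hcon s hs) (H.inv_mem (hcon (t⁻¹ * s) (mul_mem (inv_mem ht) hs)))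
      have h5 : s⁻¹ * x * s * ((t⁻¹ * s)⁻¹ * x * (t⁻¹ * s))⁻¹ = s⁻¹ * (x * t * x⁻¹ * t⁻¹) * s := by group
      rwa [h5] at h4
    rw [hC, Subgroup.mem_bot] at hmem
    have h6 : x * t * x⁻¹ * t⁻¹ = 1 := congrArg Subtype.val hmem
    have h7 : x * t = t * x := by
      have := congrArg (· * t * x) h6
      simpa [mul_assoc] using this
    have h8 : t (x a) = x a := by
      rw [htd, mul_apply, swap_apply_of_ne_of_ne ha (Ne.symm hc.2), swap_apply_of_ne_of_ne ha (Ne.symm hb.2)]
    have h9 : x (t a) = x a := by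
      have h11 : (x * t) a = (t * x) a := by rw [h7]
      exact h11.trans h8
    have h10 : t a = c := by
      rw [htd, mul_apply, swap_apply_left, swap_apply_of_ne_of_ne hc.1 hbc.symm]
    rw [h10] at h9
    exact hc.1 (x.injective h9)
  · refine not_n3_of_le h5 (H := H) (fun y hy => ?_) hN
    have h1 : (⟨y, hy⟩ : alternatingGroup α) ∈ C := by rw [hC]; exact Subgroup.mem_top _
    have h2 := h1 1 (one_mem _)
    simpa using h2

/-- `h` has a regular point for every `H` without 3-cycles in `[H, H]` -/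
def RegAll (h : Perm α) : Prop :=
  ∀ H : Subgroup (Perm α), N3 H → ∃ t ∈ alternatingGroup α, ∀ z ∈ Subgroup.zpowers h, t⁻¹ * z * t ∈ H → z = 1

section restrict

variable {p : α → Prop} [DecidablePred p]

theorem subtypeCongr_eq (f : Perm α) (hf : ∀ a, p (f a) ↔ p a) :
    subtypeCongrHom p (f.subtypePerm hf, f.subtypePerm (p := fun a => ¬ p a) (fun a => not_congr (hf a))) = f := by
  ext a
  change (Perm.subtypeCongr _ _) a = f a
  by_cases ha : p a
  · rw [Perm.subtypeCongr.left_apply _ _ ha]; rfl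
  · rw [Perm.subtypeCongr.right_apply _ _ ha]; rfl

theorem subtypeCongr_one (s : Perm {a // p a}) : subtypeCongrHom p (s, 1) = ofSubtype s := by
  ext a
  change (Perm.subtypeCongr _ _) a = _
  by_cases ha : p a
  · rw [Perm.subtypeCongr.left_apply _ _ ha, ofSubtype_apply_of_mem _ ha]
  · rw [Perm.subtypeCongr.right_apply _ _ ha, ofSubtype_apply_of_not_mem _ ha]; rfl

/-- **L1** restriction to an invariant set -/
theorem restrict (h : Perm α) (hp : ∀ a, p (h a) ↔ p a) (hP : RegAll (h.subtypePerm hp))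
    {H : Subgroup (Perm α)} (hN : N3 H) (F : Set (Perm α)) (hF : ∀ y ∈ F, ∀ a, p a → y a = a)
    {t₀ : Perm α} (ht₀ : t₀ ∈ alternatingGroup α) (h₀ : ∀ y ∈ F, t₀⁻¹ * y * t₀ ∉ H) :
    ∃ t ∈ alternatingGroup α, (∀ y ∈ F, t⁻¹ * y * t ∉ H) ∧
      ∀ z ∈ Subgroup.zpowers h, t⁻¹ * z * t ∈ H → ∀ a, p a → z a = a := by
  set h1 := h.subtypePerm hp with hh1
  set h2 := h.subtypePerm (p := fun a => ¬ p a) (fun a => not_congr (hp a)) with hh2
  have hh : subtypeCongrHom p (h1, h2) = h := subtypeCongr_eq h hp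
  let K := cjg t₀ H
  have hK : N3 K := n3_cjg hN
  let L : Subgroup (Perm {a // p a} × Perm {a // ¬ p a}) :=
    K.comap (subtypeCongrHom p) ⊓ (Subgroup.zpowers h2).comap (MonoidHom.snd _ _)
  let K' : Subgroup (Perm {a // p a}) := L.map (MonoidHom.fst _ _)
  have hK' : N3 K' := by
    intro σ hσ h3
    have e1 : (⁅K', K'⁆ : Subgroup (Perm {a // p a})) = (⁅L, L⁆ : Subgroup _).map (MonoidHom.fst _ _) :=
      (Subgroup.map_commutator _ _ _).symm
    rw [e1] at hσ
    obtain ⟨⟨u1, u2⟩, hu, rfl⟩ := hσ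
    have e2 : u2 = 1 := by
      have h4 : (MonoidHom.snd (Perm {a // p a}) (Perm {a // ¬ p a})) (u1, u2) ∈
          (⁅L, L⁆ : Subgroup _).map (MonoidHom.snd _ _) := Subgroup.mem_map_of_mem _ hu
      rw [Subgroup.map_commutator] at h4
      have h5 : L.map (MonoidHom.snd _ _) ≤ Subgroup.zpowers h2 := by
        rw [Subgroup.map_le_iff_le_comap]
        exact inf_le_right
      have h6 : (⁅Subgroup.zpowers h2, Subgroup.zpowers h2⁆ : Subgroup (Perm {a // ¬ p a})) = ⊥ := by
        rw [eq_bot_iff, Subgroup.commutator_le]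
        rintro _ ⟨i, rfl⟩ _ ⟨j, rfl⟩
        rw [Subgroup.mem_bot, commutatorElement_eq_one_iff_mul_comm]
        change h2 ^ i * h2 ^ j = h2 ^ j * h2 ^ i
        rw [← zpow_add, ← zpow_add, add_comm]
      have h7 := Subgroup.commutator_mono h5 h5 h4
      rw [h6, Subgroup.mem_bot] at h7
      exact h7
    subst e2
    have e3 : subtypeCongrHom p (u1, 1) ∈ (⁅K, K⁆ : Subgroup (Perm α)) := by
      have h4 : subtypeCongrHom p (u1, 1) ∈ (⁅L, L⁆ : Subgroup _).map (subtypeCongrHom p) :=
        Subgroup.mem_map_of_mem _ hu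
      rw [Subgroup.map_commutator] at h4
      have h5 : L.map (subtypeCongrHom p) ≤ K := by
        rw [Subgroup.map_le_iff_le_comap]
        exact inf_le_left
      exact Subgroup.commutator_mono h5 h5 h4
    refine hK _ e3 ?_
    rw [subtypeCongr_one]
    have h6 : (ofSubtype u1).cycleType = u1.cycleType := cycleType_ofSubtype
    exact h6.trans h3
  obtain ⟨s, hs, hsz⟩ := hP K' hK'
  have hs' : ofSubtype s ∈ alternatingGroup α := by
    rw [mem_alternatingGroup, sign_ofSubtype]; exact mem_alternatingGroup.1 hs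
  refine ⟨ofSubtype s * t₀, mul_mem hs' ht₀, ?_, ?_⟩
  · intro y hy
    have e1 : (ofSubtype s * t₀)⁻¹ * y * (ofSubtype s * t₀) = t₀⁻¹ * y * t₀ := by
      have e2 : y * ofSubtype s = ofSubtype s * y := by
        ext a
        rw [mul_apply, mul_apply]
        by_cases ha : p a
        · have h4 : p (ofSubtype s a) := by rw [ofSubtype_apply_of_mem _ ha]; exact (s ⟨a, ha⟩).2
          rw [hF y hy _ h4, hF y hy _ ha]
        · have h4 : ¬ p (y a) := by
            intro h5
            apply ha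
            have h6 := hF y hy _ h5
            rw [← y.injective h6]; exact h5
          rw [ofSubtype_apply_of_not_mem _ ha, ofSubtype_apply_of_not_mem _ h4]
      calc (ofSubtype s * t₀)⁻¹ * y * (ofSubtype s * t₀) = t₀⁻¹ * (ofSubtype s)⁻¹ * (y * ofSubtype s) * t₀ := by group
        _ = t₀⁻¹ * y * t₀ := by rw [e2]; group
    rw [e1]
    exact h₀ y hy
  · rintro _ ⟨j, rfl⟩ hz a ha
    change (ofSubtype s * t₀)⁻¹ * h ^ j * (ofSubtype s * t₀) ∈ H at hz
    change (h ^ j) a = a
    have e1 : (s⁻¹ * h1 ^ j * s, h2 ^ j) ∈ L := by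
      refine ⟨?_, ?_⟩
      · change subtypeCongrHom p (s⁻¹ * h1 ^ j * s, h2 ^ j) ∈ K
        have e2 : ((s⁻¹ * h1 ^ j * s, h2 ^ j) : Perm {a // p a} × Perm {a // ¬ p a}) =
            (s, 1)⁻¹ * (h1, h2) ^ j * (s, 1) := by
          ext1 <;> simp
        rw [e2, map_mul, map_mul, map_inv, map_zpow, hh, subtypeCongr_one, mem_cjg]
        have e3 : t₀⁻¹ * ((ofSubtype s)⁻¹ * h ^ j * ofSubtype s) * t₀ =
            (ofSubtype s * t₀)⁻¹ * h ^ j * (ofSubtype s * t₀) := by group
        rw [e3]; exact hz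
      · exact ⟨j, rfl⟩
    have e4 : s⁻¹ * h1 ^ j * s ∈ K' := ⟨_, e1, rfl⟩
    have e5 := hsz _ ⟨j, rfl⟩ e4
    have e6 : h1 ^ j = (h ^ j).subtypePerm _ := subtypePerm_zpow h j hp
    have e7 : (h1 ^ j) ⟨a, ha⟩ = ⟨a, ha⟩ := by
      change h1 ^ j = 1 at e5
      rw [e5]; rfl
    rw [e6] at e7
    exact congrArg Subtype.val e7

end restrict

end Cfsg.Agent.H884.An
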