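import Cfsg.Agent.H884.An.Base
import Cfsg.Agent.H884.Ex.Red

/-!
# S3509, alternating socle: the commutator step (helper884)
-/

set_option autoImplicit false
set_option linter.unusedSectionVars false

namespace Cfsg.Agent.H884.An

open Equiv Equiv.Perm
open Cfsg.Agent.H884.Ex (exists_prime_pow)

variable {α : Type*} [Fintype α] [DecidableEq α]

theorem ias (f : Perm α) (a : α) : f⁻¹ (f a) = a := f.symm_apply_apply a

theorem ais (f : Perm α) (a : α) : f (f⁻¹ a) = a := f.apply_symm_apply a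

/-- **L2** -/
theorem replace {x s : Perm α} {Z : Subgroup (Perm α)} {H : Subgroup (Perm α)} (hs : s ∈ alternatingGroup α)
    (hsZ : ∀ z ∈ Z, Commute s z) {t : Perm α} (ht : t ∈ alternatingGroup α)
    (hy : t⁻¹ * (x⁻¹ * (s⁻¹ * x * s)) * t ∉ H) (hz : ∀ z ∈ Z, t⁻¹ * z * t ∈ H → z = 1) :
    ∃ t ∈ alternatingGroup α, t⁻¹ * x * t ∉ H ∧ ∀ z ∈ Z, t⁻¹ * z * t ∈ H → z = 1 := by
  by_cases hx : t⁻¹ * x * t ∈ H
  · refine ⟨s * t, mul_mem hs ht, ?_, ?_⟩
    · intro h1
      apply hy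
      have h2 := H.mul_mem (H.inv_mem hx) h1
      have h3 : (t⁻¹ * x * t)⁻¹ * ((s * t)⁻¹ * x * (s * t)) = t⁻¹ * (x⁻¹ * (s⁻¹ * x * s)) * t := by group
      rwa [h3] at h2
    · intro z hzZ h1
      apply hz z hzZ
      have h2 : (s * t)⁻¹ * z * (s * t) = t⁻¹ * (s⁻¹ * (z * s)) * t := by group
      rw [h2, ← (hsZ z hzZ).eq, inv_mul_cancel_left] at h1
      exact h1
  · exact ⟨t, ht, hx, hz⟩

theorem block_E {h' x : Perm α} {B : α → Prop} (hxh : Commute x h') (hB : ∀ a, B (h' a) ↔ B a) (a : α) :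
    (¬ B (x⁻¹ (h' a)) ∧ ¬ B (x (h' a))) ↔ (¬ B (x⁻¹ a) ∧ ¬ B (x a)) := by
  have h1 : x (h' a) = h' (x a) := DFunLike.congr_fun hxh.eq a
  have h2 : x⁻¹ (h' a) = h' (x⁻¹ a) := DFunLike.congr_fun hxh.inv_left.eq a
  rw [h1, h2, hB, hB]

/-- the commutator step -/
theorem block (h5 : 5 ≤ Fintype.card α) (h' x w : Perm α) (B : α → Prop) [DecidablePred B]
    (hxh : Commute x h') (hwh : Commute w h')
    (hB : ∀ a, B (h' a) ↔ B a) (hBw : ∀ a, B (w a) ↔ B a) (hwf : ∀ a, B a → w a ≠ a)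
    (hd1 : ∀ a, B a → ¬ B (x a)) (hd2 : ∀ a, B a → ¬ B (x (x a))) (hne : ∃ b, B b)
    (hE : RegAll (h'.subtypePerm (p := fun a => ¬ B (x⁻¹ a) ∧ ¬ B (x a)) (block_E hxh hB)))
    {H : Subgroup (Perm α)} (hN : N3 H) :
    ∃ t ∈ alternatingGroup α, t⁻¹ * x * t ∉ H ∧ ∀ z ∈ Subgroup.zpowers h', t⁻¹ * z * t ∈ H → z = 1 := by
  let u : Perm α := ofSubtype (w.subtypePerm hBw)
  have hu1 : ∀ a, B a → u a = w a := fun a ha => ofSubtype_subtypePerm_of_mem hBw ha
  have hu2 : ∀ a, ¬ B a → u a = a := fun a ha => ofSubtype_subtypePerm_of_not_mem hBw ha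
  have hBu : ∀ a, B (u a) ↔ B a := by
    intro a
    by_cases ha : B a
    · rw [hu1 a ha]; exact hBw a
    · rw [hu2 a ha]
  have huh : Commute u h' := by
    ext a
    rw [mul_apply, mul_apply]
    by_cases ha : B a
    · rw [hu1 _ ((hB a).2 ha), hu1 _ ha]
      exact DFunLike.congr_fun hwh.eq a
    · rw [hu2 _ (fun h => ha ((hB a).1 h)), hu2 _ ha]
  let s : Perm α := u * (x * u * x⁻¹)
  have hs : s ∈ alternatingGroup α := by
    rw [mem_alternatingGroup]
    have h1 : sign s = sign u * sign u := by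
      change sign (u * (x * u * x⁻¹)) = _
      rw [map_mul, map_mul, map_mul, map_inv, mul_right_comm (sign x), mul_inv_cancel, one_mul]
    rw [h1]
    exact Int.units_mul_self _
  have hsh : Commute s h' := by
    refine huh.mul_left ((hxh.mul_left huh).mul_left hxh.inv_left)
  -- the values of `s` on `x a`
  have hsx : ∀ a, s (x a) = u (x (u a)) := by
    intro a
    change u (x (u (x⁻¹ (x a)))) = _
    rw [ias]
  have hB1 : ∀ a, B a → ¬ B (x⁻¹ a) := by
    intro a ha h1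
    have h2 := hd1 _ h1
    rw [ais] at h2
    exact h2 ha
  -- `y` is trivial on `E`
  have hyE : ∀ a, (¬ B (x⁻¹ a) ∧ ¬ B (x a)) → (x⁻¹ * (s⁻¹ * x * s)) a = a := by
    rintro a ⟨h1, h2⟩
    have h3 : s a = u a := by
      change u (x (u (x⁻¹ a))) = u a
      rw [hu2 _ h1, ais]
    have h4 : s (x a) = x (s a) := by
      rw [hsx, h3]
      by_cases ha : B a
      · exact hu2 _ (hd1 _ ((hBu a).2 ha))
      · rw [hu2 a ha]; exact hu2 _ h2
    change x⁻¹ (s⁻¹ (x (s a))) = a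
    rw [← h4, ias, ias]
  have hy1 : x⁻¹ * (s⁻¹ * x * s) ≠ 1 := by
    obtain ⟨b, hb⟩ := hne
    intro h1
    have h2 : x * s = s * x := by
      have h3 : s * x * (x⁻¹ * (s⁻¹ * x * s)) = s * x * 1 := by rw [h1]
      rw [mul_one] at h3
      rw [← h3]; group
    have h3 : x (s (x b)) = s (x (x b)) := DFunLike.congr_fun h2 (x b)
    rw [hsx, hsx, hu1 b hb, hu2 _ (hd1 _ hb), hu2 _ (hd2 _ hb), hu2 _ (hd1 _ ((hBw b).2 hb))] at h3
    exact hwf b hb (x.injective (x.injective h3))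
  obtain ⟨t₀, ht₀, hy₀⟩ := exists_not_mem h5 hy1 hN
  obtain ⟨t, ht, htF, htz⟩ := restrict h' (block_E hxh hB) hE hN {x⁻¹ * (s⁻¹ * x * s)} (by
      intro y hy a ha
      rw [Set.mem_singleton_iff.1 hy]
      exact hyE a ha) ht₀ (by
      intro y hy
      rw [Set.mem_singleton_iff.1 hy]
      exact hy₀)
  refine replace hs ?_ ht (htF _ rfl) ?_
  · rintro _ ⟨j, rfl⟩
    exact hsh.zpow_right j
  · rintro z hz hzH
    have h1 := htz z hz hzH
    have hxz : Commute x z := by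
      obtain ⟨j, rfl⟩ := hz
      exact hxh.zpow_right j
    have hzB : ∀ b, B b → z b = b := fun b hb => h1 b ⟨hB1 b hb, hd1 b hb⟩
    ext a
    rw [one_apply]
    by_cases ha : B (x⁻¹ a)
    · have h2 := hzB _ ha
      have h3 : x (z (x⁻¹ a)) = z (x (x⁻¹ a)) := DFunLike.congr_fun hxz.eq _
      rw [h2, ais] at h3
      exact h3.symm
    · by_cases ha' : B (x a)
      · have h2 := hzB _ ha'
        have h3 : x (z a) = z (x a) := DFunLike.congr_fun hxz.eq _
        rw [h2] at h3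
        exact x.injective h3
      · exact h1 a ⟨ha, ha'⟩

/-- restricting gives a divisor of the order -/
theorem orderOf_subtypePerm_dvd {p : α → Prop} (f : Perm α) (hf : ∀ a, p (f a) ↔ p a) :
    orderOf (f.subtypePerm hf) ∣ orderOf f := by
  apply orderOf_dvd_of_pow_eq_one
  rw [subtypePerm_pow]
  ext a
  simp only [pow_orderOf_eq_one, subtypePerm_apply, one_apply]

end Cfsg.Agent.H884.An
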