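import Mathlib

/-!
# S3509, alternating socle: interface (helper884)

* `Fam R x` : commuting permutations `x r` of prime order `r`, `r ∈ R`;
* `Cov F H` : every `A_n`-conjugate of the set `F` meets `H`;
* `N3 H` : the derived subgroup of `H` contains no 3-cycle;
* `Imprim` : (counting) block systems with blocks of size `≥ 3`;
* `TransReg` : every element has a regular point if the stabiliser is transitive.
-/

set_option autoImplicit false

namespace Cfsg.Agent.H884.An

open Equiv Equiv.Perm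

/-- commuting permutations of prime order -/
structure Fam {α : Type*} (R : Finset ℕ) (x : ℕ → Perm α) : Prop where
  pr : ∀ r ∈ R, r.Prime
  ord : ∀ r ∈ R, orderOf (x r) = r
  comm : ∀ r ∈ R, ∀ s ∈ R, Commute (x r) (x s)

/-- every conjugate of `F` under the alternating group meets `H` -/
def Cov {α : Type*} [Fintype α] [DecidableEq α] (F : Set (Perm α)) (H : Subgroup (Perm α)) : Prop :=
  ∀ t ∈ alternatingGroup α, ∃ x ∈ F, t⁻¹ * x * t ∈ H

/-- the derived subgroup has no 3-cycles -/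
def N3 {α : Type*} [Fintype α] [DecidableEq α] (H : Subgroup (Perm α)) : Prop :=
  ∀ σ ∈ ⁅H, H⁆, ¬ σ.IsThreeCycle

/-- **Task A2** (counting). Blocks of size `a ≥ 3`, `b ≥ 2` blocks, `n = a b ≥ 7`. -/
def Imprim : Prop :=
  ∀ {n a b : ℕ}, 3 ≤ a → 2 ≤ b → n = a * b → 7 ≤ n → ∀ blk : Fin n → Fin b,
    (∀ c, (Finset.univ.filter fun p => blk p = c).card = a) →
    ∀ (R : Finset ℕ) (x : ℕ → Perm (Fin n)), (∀ r ∈ R, r.Prime ∧ orderOf (x r) = r) →
      ∃ t ∈ alternatingGroup (Fin n), ∀ r ∈ R,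
        ¬ ∀ p q, blk p = blk q ↔ blk ((t⁻¹ * x r * t) p) = blk ((t⁻¹ * x r * t) q)

/-- transitive stabilisers: every element has a regular point -/
def TransReg : Prop :=
  ∀ {n : ℕ}, 5 ≤ n → n ≠ 6 → ∀ (H : Subgroup (Perm (Fin n))), MulAction.IsPretransitive H (Fin n) →
    ¬ alternatingGroup (Fin n) ≤ H → ∀ g : Perm (Fin n),
    ∃ t ∈ alternatingGroup (Fin n), ∀ z ∈ Subgroup.zpowers g, t⁻¹ * z * t ∈ H → z = 1

end Cfsg.Agent.H884.An
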