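import Cfsg.Agent.H884.An.Cert
import Cfsg.Agent.H884.An.Base
import Cfsg.Agent.H884.Ex.Red

/-!
# S3509, alternating socle: degrees 5, 6, 7, 8 (helper884)
-/

set_option autoImplicit false
set_option linter.unusedSectionVars false

namespace Cfsg.Agent.H884.An

open Equiv Equiv.Perm
open scoped commutatorElement
open Cfsg.Agent.H884.Ex (PP cases_of cov_conj two_of_cov pr6 pr10 pr12 pr15 exists_prime_pow chkE5 chkE6 chkE8)

theorem n3_of_rep {n : ℕ} {H : Subgroup (Perm (Fin n))} {σ : Perm (Fin n)} (g : Perm (Fin n)) {l : List ℕ}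
    (hg : g.cycleType = ↑l) (hσ : σ.cycleType = ↑l)
    (hcore : ∀ H : Subgroup (Perm (Fin n)), Ex.Cov H g → ¬ N3 H) (h : Ex.Cov H σ) : ¬ N3 H := by
  intro hN
  have h1 : IsConj g σ := by rw [isConj_iff_cycleType_eq, hg, hσ]
  obtain ⟨c, hc⟩ := isConj_iff.1 h1
  have h2 : N3 (H.comap (MulAut.conj c).toMonoidHom) := by
    have h3 := n3_cjg (t := c⁻¹) hN
    rw [cjg, inv_inv] at h3
    exact h3
  exact hcore _ (cov_conj c hc h) h2

/-- prime powers -/
theorem not_pp {n : ℕ} (h5 : 5 ≤ n) {H : Subgroup (Perm (Fin n))} {σ : Perm (Fin n)} (h : Ex.Cov H σ)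
    (hN : N3 H) : ¬ PP (orderOf σ) := by
  rintro ⟨p, k, hp, hk⟩
  obtain ⟨r, hr, hrd, -⟩ := h 1 (one_mem _)
  have hrp : ∀ r : ℕ, r.Prime → r ∣ orderOf σ → r = p := by
    intro r hr hrd
    rw [hk] at hrd
    exact (Nat.prime_dvd_prime_iff_eq hr hp).1 (hr.dvd_of_dvd_pow hrd)
  obtain rfl := hrp r hr hrd
  have hne : σ ^ (orderOf σ / r) ≠ 1 := by
    intro h1
    have h2 := orderOf_dvd_of_pow_eq_one h1
    have h3 : 0 < orderOf σ := orderOf_pos σ
    have h4 := Nat.le_of_dvd (Nat.div_pos (Nat.le_of_dvd h3 hrd) hr.pos) h2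
    have h5 := Nat.div_lt_self h3 hr.one_lt
    omega
  obtain ⟨t, ht, htH⟩ := exists_not_mem (by rw [Fintype.card_fin]; exact h5) hne hN
  obtain ⟨s, hs, hsd, h1⟩ := h t ht
  obtain rfl := hrp s hs hsd
  exact htH h1

theorem fin5 {H : Subgroup (Perm (Fin 5))} {σ : Perm (Fin 5)} (h : Ex.Cov H σ) : ¬ N3 H := by
  intro hN
  rcases cases_of _ chkE5 σ with h1 | ⟨l, h1, h2⟩
  · exact not_pp (by norm_num) h hN h1
  · simp only [List.mem_cons, List.not_mem_nil, or_false] at h1
    subst h1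
    exact n3_of_rep g_u5_32 ct_u5_32 h2
      (fun H hH => core_u5_32 (two_of_cov ct_u5_32 6 2 3 (by decide) pr6 hH)) h hN

theorem fin6 {H : Subgroup (Perm (Fin 6))} {σ : Perm (Fin 6)} (h : Ex.Cov H σ) (hN : N3 H) :
    σ.cycleType = ↑([6] : List ℕ) := by
  rcases cases_of _ chkE6 σ with h1 | ⟨l, h1, h2⟩
  · exact absurd h1 (not_pp (by norm_num) h hN)
  · simp only [List.mem_cons, List.not_mem_nil, or_false] at h1
    rcases h1 with rfl | rfl
    · exact absurd hN (n3_of_rep g_u6_32 ct_u6_32 h2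
        (fun H hH => core_u6_32 (two_of_cov ct_u6_32 6 2 3 (by decide) pr6 hH)) h)
    · exact h2

theorem fin7 {H : Subgroup (Perm (Fin 7))} {σ : Perm (Fin 7)} (h : Ex.Cov H σ) : ¬ N3 H := by
  intro hN
  rcases cases_of _ chkE7 σ with h1 | ⟨l, h1, h2⟩
  · exact not_pp (by norm_num) h hN h1
  · simp only [List.mem_cons, List.not_mem_nil, or_false] at h1
    rcases h1 with rfl | rfl | rfl | rfl | rfl
    · exact n3_of_rep g_u7_32 ct_u7_32 h2
        (fun H hH => core_u7_32 (two_of_cov ct_u7_32 6 2 3 (by decide) pr6 hH)) h hN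
    · exact n3_of_rep g_u7_322 ct_u7_322 h2
        (fun H hH => core_u7_322 (two_of_cov ct_u7_322 6 2 3 (by decide) pr6 hH)) h hN
    · exact n3_of_rep g_u7_6 ct_u7_6 h2
        (fun H hH => core_u7_6 (two_of_cov ct_u7_6 6 2 3 (by decide) pr6 hH)) h hN
    · exact n3_of_rep g_u7_52 ct_u7_52 h2
        (fun H hH => core_u7_52 (two_of_cov ct_u7_52 10 2 5 (by decide) pr10 hH)) h hN
    · exact n3_of_rep g_u7_43 ct_u7_43 h2
        (fun H hH => core_u7_43 (two_of_cov ct_u7_43 12 2 3 (by decide) pr12 hH)) h hN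

theorem fin8 {H : Subgroup (Perm (Fin 8))} {σ : Perm (Fin 8)} (h : Ex.Cov H σ) : ¬ N3 H := by
  intro hN
  rcases cases_of _ chkE8 σ with h1 | ⟨l, h1, h2⟩
  · exact not_pp (by norm_num) h hN h1
  · simp only [List.mem_cons, List.not_mem_nil, or_false] at h1
    rcases h1 with rfl | rfl | rfl | rfl | rfl | rfl | rfl | rfl
    · exact n3_of_rep g_u8_32 ct_u8_32 h2 (fun H hH => core_u8_32 (two_of_cov ct_u8_32 6 2 3 (by decide) pr6 hH)) h hN
    · exact n3_of_rep g_u8_322 ct_u8_322 h2 (fun H hH => core_u8_322 (two_of_cov ct_u8_322 6 2 3 (by decide) pr6 hH)) h hN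
    · exact n3_of_rep g_u8_332 ct_u8_332 h2 (fun H hH => core_u8_332 (two_of_cov ct_u8_332 6 2 3 (by decide) pr6 hH)) h hN
    · exact n3_of_rep g_u8_6 ct_u8_6 h2 (fun H hH => core_u8_6 (two_of_cov ct_u8_6 6 2 3 (by decide) pr6 hH)) h hN
    · exact n3_of_rep g_u8_62 ct_u8_62 h2 (fun H hH => core_u8_62 (two_of_cov ct_u8_62 6 2 3 (by decide) pr6 hH)) h hN
    · exact n3_of_rep g_u8_52 ct_u8_52 h2 (fun H hH => core_u8_52 (two_of_cov ct_u8_52 10 2 5 (by decide) pr10 hH)) h hN
    · exact n3_of_rep g_u8_53 ct_u8_53 h2 (fun H hH => core_u8_53 (two_of_cov ct_u8_53 15 3 5 (by decide) pr15 hH)) h hN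
    · exact n3_of_rep g_u8_43 ct_u8_43 h2 (fun H hH => core_u8_43 (two_of_cov ct_u8_43 12 2 3 (by decide) pr12 hH)) h hN

/-- from `Ex.Cov` to `RegAll` -/
theorem regAll_of_cov {n : ℕ} {σ : Perm (Fin n)}
    (h : ∀ H : Subgroup (Perm (Fin n)), N3 H → ¬ Ex.Cov H σ) : RegAll σ := by
  intro H hN
  by_contra hcon
  push Not at hcon
  apply h H hN
  intro t ht
  obtain ⟨z, hz, hzH, hz1⟩ := hcon t ht
  obtain ⟨r, hr, hrd, hrz⟩ := exists_prime_pow hz hz1
  refine ⟨r, hr, hrd, ?_⟩
  have h1 : Subgroup.zpowers z ≤ cjg t H := by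
    rw [Subgroup.zpowers_le]; exact mem_cjg.2 hzH
  exact mem_cjg.1 (h1 hrz)

theorem trans_of_six {σ : Perm (Fin 6)} (h : σ.cycleType = ↑([6] : List ℕ)) : ∀ a b, σ.SameCycle a b := by
  have hc : σ.IsCycle := by
    rw [← card_cycleType_eq_one, h]; rfl
  have hs : σ.support = Finset.univ := by
    rw [← Finset.card_eq_iff_eq_univ, ← sum_cycleType, h]; rfl
  intro a b
  exact hc.sameCycle (mem_support.1 (by rw [hs]; exact Finset.mem_univ _))
    (mem_support.1 (by rw [hs]; exact Finset.mem_univ _))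

section transport

variable {α β : Type*} [Fintype α] [DecidableEq α] [Fintype β] [DecidableEq β]

theorem isThree_permCongr (e : α ≃ β) {σ : Perm α} (h : (e.permCongr σ).IsThreeCycle) : σ.IsThreeCycle := by
  rw [← card_support_eq_three_iff] at h ⊢
  rw [← h]
  have h1 : (e.permCongr σ).support = σ.support.map e.toEmbedding := by
    ext b
    rw [mem_support, Finset.mem_map, Equiv.permCongr_apply]
    constructor
    · intro hb
      refine ⟨e.symm b, ?_, e.apply_symm_apply b⟩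
      rw [mem_support]
      intro h2
      apply hb
      rw [h2, e.apply_symm_apply]
    · rintro ⟨a, ha, rfl⟩
      rw [mem_support] at ha
      change e (σ (e.symm (e a))) ≠ e a
      rw [e.symm_apply_apply]
      exact fun h2 => ha (e.injective h2)
  rw [h1, Finset.card_map]

theorem regAll_transport (e : α ≃ β) {h : Perm α} (hr : RegAll (e.permCongrHom h)) : RegAll h := by
  intro H hN
  have h1 : N3 (H.map e.permCongrHom.toMonoidHom) := by
    intro σ hσ h3
    rw [← Subgroup.map_commutator] at hσ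
    obtain ⟨u, hu, rfl⟩ := hσ
    exact hN u hu (isThree_permCongr e h3)
  obtain ⟨t, ht, htz⟩ := hr _ h1
  have ht' : e.permCongrHom (e.permCongrHom.symm t) = t := e.permCongrHom.apply_symm_apply t
  refine ⟨e.permCongrHom.symm t, ?_, ?_⟩
  · rw [mem_alternatingGroup] at ht ⊢
    rw [← ht, ← sign_permCongr e]
    exact congrArg sign ht'
  · intro z hz hzH
    have h2 : e.permCongrHom z ∈ Subgroup.zpowers (e.permCongrHom h) := by
      obtain ⟨j, rfl⟩ := hz
      exact ⟨j, (map_zpow e.permCongrHom h j).symm⟩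
    have h3 : t⁻¹ * e.permCongrHom z * t ∈ H.map e.permCongrHom.toMonoidHom := by
      refine ⟨_, hzH, ?_⟩
      change e.permCongrHom _ = _
      rw [map_mul, map_mul, map_inv, ht']
    have h4 := htz _ h2 h3
    exact e.permCongrHom.injective (h4.trans (map_one _).symm)

end transport

/-- **degrees 5, 6, 7, 8** -/
theorem small {α : Type*} [Fintype α] [DecidableEq α] (h5 : 5 ≤ Fintype.card α) (h8 : Fintype.card α ≤ 8)
    (h : Perm α) (hex : Fintype.card α = 6 → ¬ ∀ a b, h.SameCycle a b) : RegAll h := by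
  obtain ⟨n, hn⟩ : ∃ n, Fintype.card α = n := ⟨_, rfl⟩
  have e : α ≃ Fin n := Fintype.equivFinOfCardEq hn
  apply regAll_transport e
  rw [hn] at h5 h8 hex
  interval_cases n
  · exact regAll_of_cov fun H hN hc => fin5 hc hN
  · refine regAll_of_cov fun H hN hc => hex rfl fun a b => ?_
    obtain ⟨j, hj⟩ := trans_of_six (fin6 hc hN) (e a) (e b)
    refine ⟨j, ?_⟩
    rw [← map_zpow] at hj
    change e ((h ^ j) (e.symm (e a))) = e b at hj
    rw [e.symm_apply_apply] at hj
    exact e.injective hj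
  · exact regAll_of_cov fun H hN hc => fin7 hc hN
  · exact regAll_of_cov fun H hN hc => fin8 hc hN

end Cfsg.Agent.H884.An
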