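import Cfsg.Agent.H884.An.Block
import Cfsg.Agent.H884.An.Small

/-!
# S3509, alternating socle: the induction (helper884)
-/

set_option autoImplicit false
set_option linter.unusedSectionVars false

namespace Cfsg.Agent.H884.An

open Equiv Equiv.Perm
open Cfsg.Agent.H884.Ex (exists_prime_pow)

universe u

/-- the induction hypothesis -/
def IHn (n : ℕ) : Prop :=
  ∀ (β : Type u) [Fintype β] [DecidableEq β], 5 ≤ Fintype.card β → Fintype.card β < n → ∀ f : Perm β,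
    Squarefree (orderOf f) → (Fintype.card β = 6 → ¬ ∀ a b, f.SameCycle a b) → RegAll f

variable {α : Type u} [Fintype α] [DecidableEq α]

theorem ndvd_div {m p : ℕ} (hm : Squarefree m) (hp : p.Prime) (hpm : p ∣ m) : ¬ p ∣ m / p := by
  intro h
  have h1 : p * p ∣ m := by
    have := Nat.mul_dvd_mul_left p h
    rwa [Nat.mul_div_cancel' hpm] at this
  exact hp.one_lt.ne' (Nat.isUnit_iff.1 (hm p h1))

theorem dvd_div_of_ne {m p q : ℕ} (hp : p.Prime) (hq : q.Prime) (hpq : p ≠ q) (hpm : p ∣ m) (hqm : q ∣ m) :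
    p ∣ m / q := by
  have h1 : p ∣ q * (m / q) := by rwa [Nat.mul_div_cancel' hqm]
  rcases hp.dvd_mul.1 h1 with h2 | h2
  · exact absurd ((Nat.prime_dvd_prime_iff_eq hp hq).1 h2) hpq
  · exact h2

/-- the block of `d` -/
def BB (h : Perm α) (p : ℕ) (d a : α) : Prop := (h ^ p).SameCycle d a

instance (h : Perm α) (p : ℕ) (d : α) : DecidablePred (BB h p d) := fun a => by
  unfold BB; infer_instance

section

variable {h : Perm α} {p : ℕ} {d : α}

theorem BB_exists {a : α} (ha : BB h p d a) : ∃ N : ℤ, (p : ℤ) ∣ N ∧ a = (h ^ N) d := by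
  obtain ⟨k, rfl⟩ := ha
  refine ⟨p * k, dvd_mul_right _ _, ?_⟩
  rw [zpow_mul, zpow_natCast]

theorem BB_zpow (hdp : ∀ N : ℤ, (h ^ N) d = d → (p : ℤ) ∣ N) (N : ℤ) : BB h p d ((h ^ N) d) ↔ (p : ℤ) ∣ N := by
  constructor
  · intro h1
    obtain ⟨M, hM, h2⟩ := BB_exists h1
    have h3 : (h ^ (N - M)) d = d := by
      rw [sub_eq_neg_add, zpow_add, mul_apply, h2, ← mul_apply, ← zpow_add, neg_add_cancel, zpow_zero, one_apply]
    have h4 := dvd_add (hdp _ h3) hM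
    rwa [sub_add_cancel] at h4
  · rintro ⟨k, rfl⟩
    refine ⟨k, ?_⟩
    rw [zpow_mul, zpow_natCast]

theorem x_zpow (k : ℕ) (N : ℤ) : (h ^ k) ((h ^ N) d) = (h ^ (N + k)) d := by
  rw [← mul_apply, ← zpow_natCast, ← zpow_add, add_comm]

theorem xinv_zpow (k : ℕ) (N : ℤ) : (h ^ k)⁻¹ ((h ^ N) d) = (h ^ (N - k)) d := by
  rw [← mul_apply, ← zpow_natCast, ← zpow_neg, ← zpow_add, neg_add_eq_sub]

theorem dvd_order {r : ℕ} (hd : ∀ N : ℤ, (h ^ N) d = d → (r : ℤ) ∣ N) : r ∣ orderOf h := by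
  have h1 := hd (orderOf h) (by rw [zpow_natCast, pow_orderOf_eq_one, one_apply])
  exact Int.natCast_dvd_natCast.1 h1

/-- **block lemma** -/
theorem block2 {n : ℕ} (hn : Fintype.card α = n) (h9 : 9 ≤ n) (IH : IHn.{u} n) (hsq : Squarefree (orderOf h))
    {q : ℕ} (hp : p.Prime) (hq : q.Prime) (hpq : p ≠ q) (h3 : 3 ≤ p)
    (hdp : ∀ N : ℤ, (h ^ N) d = d → (p : ℤ) ∣ N) (hdq : ∀ N : ℤ, (h ^ N) d = d → (q : ℤ) ∣ N)
    (hcard : 5 ≤ Fintype.card {a // ¬ BB h p d ((h ^ (orderOf h / p))⁻¹ a) ∧ ¬ BB h p d ((h ^ (orderOf h / p)) a)})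
    (hout : ∃ e, ¬ BB h p d e ∧ ¬ BB h p d ((h ^ (orderOf h / p))⁻¹ e) ∧ ¬ BB h p d ((h ^ (orderOf h / p)) e)) :
    RegAll h := by
  intro H hN
  have hpm : p ∣ orderOf h := dvd_order hdp
  have hqm : q ∣ orderOf h := dvd_order hdq
  have hm0 : 0 < orderOf h := orderOf_pos h
  obtain ⟨x, hx⟩ : ∃ x, x = h ^ (orderOf h / p) := ⟨_, rfl⟩
  obtain ⟨w, hw⟩ : ∃ w, w = h ^ (orderOf h / q) := ⟨_, rfl⟩
  rw [← hx] at hcard hout
  have hp1 : ¬ (p : ℤ) ∣ ((orderOf h / p : ℕ) : ℤ) := by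
    rw [Int.natCast_dvd_natCast]; exact ndvd_div hsq hp hpm
  have hq1 : ¬ (q : ℤ) ∣ ((orderOf h / q : ℕ) : ℤ) := by
    rw [Int.natCast_dvd_natCast]; exact ndvd_div hsq hq hqm
  have hpw : (p : ℤ) ∣ ((orderOf h / q : ℕ) : ℤ) := by
    rw [Int.natCast_dvd_natCast]; exact dvd_div_of_ne hp hq hpq hpm hqm
  have hB : ∀ a, BB h p d ((h ^ p) a) ↔ BB h p d a := fun a => sameCycle_apply_right
  have hBw : ∀ a, BB h p d (w a) ↔ BB h p d a := by
    intro a
    rw [Int.natCast_dvd_natCast] at hpw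
    obtain ⟨k, hk⟩ := hpw
    rw [hw, hk, pow_mul]
    exact sameCycle_pow_right
  have hwf : ∀ a, BB h p d a → w a ≠ a := by
    intro a ha h1
    obtain ⟨N, hN, rfl⟩ := BB_exists ha
    rw [hw, x_zpow] at h1
    apply hq1
    have h2 : (h ^ ((orderOf h / q : ℕ) : ℤ)) d = d := by
      have h3 : (h ^ (-N)) ((h ^ (N + ((orderOf h / q : ℕ) : ℤ))) d) = (h ^ (-N)) ((h ^ N) d) := by rw [h1]
      rwa [← mul_apply, ← mul_apply, ← zpow_add, ← zpow_add, neg_add_cancel_left, neg_add_cancel, zpow_zero,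
        one_apply] at h3
    exact hdq _ h2
  have hd1 : ∀ a, BB h p d a → ¬ BB h p d (x a) := by
    intro a ha h1
    obtain ⟨N, hN, rfl⟩ := BB_exists ha
    rw [hx, x_zpow, BB_zpow hdp] at h1
    exact hp1 ((dvd_add_right hN).1 h1)
  have hd2 : ∀ a, BB h p d a → ¬ BB h p d (x (x a)) := by
    intro a ha h1
    obtain ⟨N, hN, rfl⟩ := BB_exists ha
    rw [hx, x_zpow, x_zpow, BB_zpow hdp, add_assoc] at h1
    have h2 := (dvd_add_right hN).1 h1
    rw [← two_mul] at h2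
    rcases (Nat.prime_iff_prime_int.1 hp).dvd_or_dvd h2 with h4 | h4
    · have h5 : p ∣ 2 := by exact_mod_cast h4
      have := Nat.le_of_dvd (by norm_num) h5
      omega
    · exact hp1 h4
  have hBd : BB h p d d := SameCycle.refl _ _
  have hxh : Commute x (h ^ p) := by rw [hx]; exact (Commute.refl h).pow_pow _ _
  have hwh : Commute w (h ^ p) := by rw [hw]; exact (Commute.refl h).pow_pow _ _
  have hE : RegAll ((h ^ p).subtypePerm (p := fun a => ¬ BB h p d (x⁻¹ a) ∧ ¬ BB h p d (x a))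
      (block_E hxh hB)) := by
    apply IH _ hcard
    · rw [← hn]
      refine Fintype.card_subtype_lt (x := x d) ?_
      rintro ⟨h1, -⟩
      rw [ias] at h1
      exact h1 hBd
    · exact hsq.squarefree_of_dvd ((orderOf_subtypePerm_dvd _ _).trans (orderOf_pow_dvd _))
    · intro _ htr
      obtain ⟨e, he, he1, he2⟩ := hout
      have hdE : ¬ BB h p d (x⁻¹ d) ∧ ¬ BB h p d (x d) := by
        refine ⟨fun h1 => ?_, hd1 d hBd⟩
        have h2 := hd1 _ h1
        rw [ais] at h2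
        exact h2 hBd
      obtain ⟨j, hj⟩ := htr ⟨d, hdE⟩ ⟨e, he1, he2⟩
      rw [subtypePerm_zpow] at hj
      have h1 : ((h ^ p) ^ j) d = e := congrArg Subtype.val hj
      exact he ⟨j, h1⟩
  obtain ⟨t, ht, htx, htz⟩ := block (by omega) (h ^ p) x w (BB h p d) hxh hwh hB hBw hwf hd1 hd2 ⟨d, hBd⟩ hE hN
  refine ⟨t, ht, fun z hz hzH => ?_⟩
  by_contra hz1
  obtain ⟨r, hr, hrd, hrz⟩ := exists_prime_pow hz hz1
  have hrH : t⁻¹ * h ^ (orderOf h / r) * t ∈ H := by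
    have h1 : Subgroup.zpowers z ≤ cjg t H := by
      rw [Subgroup.zpowers_le]; exact mem_cjg.2 hzH
    exact mem_cjg.1 (h1 hrz)
  by_cases hrp : r = p
  · subst hrp
    rw [hx] at htx
    exact htx hrH
  · obtain ⟨k, hk⟩ := dvd_div_of_ne hp hr (Ne.symm hrp) hpm hrd
    have h1 : h ^ (orderOf h / r) ∈ Subgroup.zpowers (h ^ p) := by
      rw [hk, pow_mul]
      exact Subgroup.npow_mem_zpowers _ _
    have h2 := htz _ h1 hrH
    have h3 := orderOf_dvd_of_pow_eq_one h2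
    have h4 := Nat.le_of_dvd (Nat.div_pos (Nat.le_of_dvd hm0 hrd) hr.pos) h3
    have h5 := Nat.div_lt_self hm0 hr.one_lt
    omega

end

/-- transitive permutations -/
theorem dvd_of_trans {f : Perm α} (hf : ∀ a b, f.SameCycle a b) {N : ℤ} {b : α} (hb : (f ^ N) b = b) :
    f ^ N = 1 := by
  ext a
  obtain ⟨j, rfl⟩ := hf b a
  rw [one_apply, ← mul_apply, ← zpow_add, add_comm, zpow_add, mul_apply, hb]

theorem order_of_trans {f : Perm α} (hf : ∀ a b, f.SameCycle a b) (h2 : 2 ≤ Fintype.card α) :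
    orderOf f = Fintype.card α := by
  have hne : ∀ a, f a ≠ a := by
    intro a ha
    obtain ⟨b, hb⟩ : ∃ b, b ≠ a := Fintype.exists_ne_of_one_lt_card (by omega) a
    obtain ⟨j, hj⟩ := hf a b
    rw [zpow_apply_eq_self_of_apply_eq_self ha] at hj
    exact hb hj.symm
  obtain ⟨a, -⟩ : ∃ a : α, a ∈ (Finset.univ : Finset α) := Finset.card_pos.1 (by rw [Finset.card_univ]; omega)
  have hc : f.IsCycle := ⟨a, hne a, fun b _ => hf a b⟩
  rw [hc.orderOf, ← Finset.card_univ]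
  congr 1
  ext b
  simp [hne b]

/-- elements of prime order -/
theorem regAll_prime (h5 : 5 ≤ Fintype.card α) {h : Perm α} (hp : (orderOf h).Prime) : RegAll h := by
  intro H hN
  have h1 : h ≠ 1 := by
    rintro rfl
    rw [orderOf_one] at hp
    exact Nat.not_prime_one hp
  obtain ⟨t, ht, htH⟩ := exists_not_mem h5 h1 hN
  refine ⟨t, ht, fun z hz hzH => ?_⟩
  by_contra hz1
  obtain ⟨r, hr, hrd, hrz⟩ := exists_prime_pow hz hz1
  have h2 : r = orderOf h := (Nat.prime_dvd_prime_iff_eq hr hp).1 hrd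
  rw [h2, Nat.div_self hp.pos, pow_one] at hrz
  have h3 : Subgroup.zpowers z ≤ cjg t H := by
    rw [Subgroup.zpowers_le]; exact mem_cjg.2 hzH
  exact htH (mem_cjg.1 (h3 hrz))

/-- arithmetic: two prime divisors -/
theorem two_primes {n : ℕ} (h9 : 9 ≤ n) (hsq : Squarefree n) (hn : ¬ n.Prime) :
    ∃ p q : ℕ, p.Prime ∧ q.Prime ∧ p ≠ q ∧ 5 ≤ p ∧ p ∣ n ∧ q ∣ n := by
  obtain ⟨p, hp, h5, hpn⟩ : ∃ p : ℕ, p.Prime ∧ 5 ≤ p ∧ p ∣ n := by
    by_contra hcon
    push Not at hcon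
    have h1 : n.primeFactors ⊆ {2, 3} := by
      intro p hp
      have h2 := Nat.prime_of_mem_primeFactors hp
      have h3 : p < 5 := by
        by_contra h
        exact hcon p h2 (by omega) (Nat.dvd_of_mem_primeFactors hp)
      have h4 := h2.two_le
      interval_cases p
      · simp
      · simp
      · exact absurd h2 (by norm_num)
    have h2 := Nat.prod_primeFactors_of_squarefree hsq
    have h3 : ∏ p ∈ n.primeFactors, p ∣ ∏ p ∈ ({2, 3} : Finset ℕ), p := Finset.prod_dvd_prod_of_subset _ _ _ h1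
    rw [h2] at h3
    have h4 : ∏ p ∈ ({2, 3} : Finset ℕ), p = 6 := by decide
    rw [h4] at h3
    have := Nat.le_of_dvd (by norm_num) h3
    omega
  have h1 : n / p ≠ 1 := by
    intro h
    apply hn
    have := Nat.div_mul_cancel hpn
    rw [h, one_mul] at this
    rwa [← this]
  obtain ⟨q, hq, hqn⟩ := Nat.exists_prime_and_dvd h1
  refine ⟨p, q, hp, hq, ?_, h5, hpn, hqn.trans (Nat.div_dvd_of_dvd hpn)⟩
  rintro rfl
  exact ndvd_div hsq hp hpn hqn

end Cfsg.Agent.H884.An
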