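import Cfsg.Agent.H884.An.PN

/-!
# S3509, alternating socle: the main theorem (helper884)
-/

set_option autoImplicit false
set_option linter.unusedSectionVars false

namespace Cfsg.Agent.H884.An

open Equiv Equiv.Perm
open Cfsg.Agent.H884.Ex (exists_prime_pow)

universe u

variable {α : Type u} [Fintype α] [DecidableEq α]

/-- five points -/
def cc : Fin 5 → ℤ × ℤ := ![(0, 0), (0, 1), (2, 0), (2, 1), (3, 0)]

theorem cc_inj : Function.Injective cc := by decide

theorem cc_fst (k : Fin 5) : 0 ≤ (cc k).1 ∧ (cc k).1 ≤ 3 ∧ (cc k).1 ≠ 1 := by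
  revert k; decide

theorem cc_snd (k : Fin 5) : 0 ≤ (cc k).2 ∧ (cc k).2 ≤ 1 := by
  revert k; decide

theorem not_dvd_small {p : ℕ} {i : ℤ} (h0 : i ≠ 0) (h1 : -(p : ℤ) < i) (h2 : i < p) : ¬ (p : ℤ) ∣ i := by
  intro h
  apply h0
  apply Int.eq_zero_of_abs_lt_dvd h
  rw [abs_lt]
  exact ⟨h1, h2⟩

section

variable {h : Perm α} {d : α}

theorem mem_E {p : ℕ} (hdp : ∀ N : ℤ, (h ^ N) d = d → (p : ℤ) ∣ N) (N : ℤ) :
    (¬ BB h p d ((h ^ (orderOf h / p))⁻¹ ((h ^ N) d)) ∧ ¬ BB h p d ((h ^ (orderOf h / p)) ((h ^ N) d))) ↔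
      (¬ (p : ℤ) ∣ N - ((orderOf h / p : ℕ) : ℤ)) ∧ ¬ (p : ℤ) ∣ N + ((orderOf h / p : ℕ) : ℤ) := by
  rw [xinv_zpow, x_zpow, BB_zpow hdp, BB_zpow hdp]

theorem dvd_of_eq {p : ℕ} (hdp : ∀ N : ℤ, (h ^ N) d = d → (p : ℤ) ∣ N) {N M : ℤ} (hNM : (h ^ N) d = (h ^ M) d) :
    (p : ℤ) ∣ N - M := by
  apply hdp
  rw [sub_eq_neg_add, zpow_add, mul_apply, hNM, ← mul_apply, ← zpow_add, neg_add_cancel, zpow_zero, one_apply]

/-- transitive case -/
theorem case_trans {n : ℕ} (hn : Fintype.card α = n) (h9 : 9 ≤ n) (IH : IHn.{u} n) (hsq : Squarefree (orderOf h))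
    (htr : ∀ a b, h.SameCycle a b) : RegAll h := by
  have hm : orderOf h = n := by rw [order_of_trans htr (by omega), hn]
  by_cases hpr : n.Prime
  · exact regAll_prime (by omega) (by rw [hm]; exact hpr)
  obtain ⟨p, q, hp, hq, hpq, hp5, hpn, hqn⟩ := two_primes h9 (hm ▸ hsq) hpr
  obtain ⟨d, -⟩ : ∃ a : α, a ∈ (Finset.univ : Finset α) := Finset.card_pos.1 (by rw [Finset.card_univ]; omega)
  have hd : ∀ N : ℤ, (h ^ N) d = d → (n : ℤ) ∣ N := by
    intro N hN
    rw [← hm, orderOf_dvd_iff_zpow_eq_one]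
    exact dvd_of_trans htr hN
  have hdp : ∀ N : ℤ, (h ^ N) d = d → (p : ℤ) ∣ N := fun N hN =>
    (Int.natCast_dvd_natCast.2 hpn).trans (hd N hN)
  have hdq : ∀ N : ℤ, (h ^ N) d = d → (q : ℤ) ∣ N := fun N hN =>
    (Int.natCast_dvd_natCast.2 hqn).trans (hd N hN)
  have hpm : p ∣ orderOf h := dvd_order hdp
  have hqm : q ∣ orderOf h := dvd_order hdq
  have hp1 : ¬ (p : ℤ) ∣ ((orderOf h / p : ℕ) : ℤ) := by
    rw [Int.natCast_dvd_natCast]; exact ndvd_div hsq hp hpm
  have hq1 : ¬ (q : ℤ) ∣ ((orderOf h / q : ℕ) : ℤ) := by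
    rw [Int.natCast_dvd_natCast]; exact ndvd_div hsq hq hqm
  have hpw : (p : ℤ) ∣ ((orderOf h / q : ℕ) : ℤ) := by
    rw [Int.natCast_dvd_natCast]; exact dvd_div_of_ne hp hq hpq hpm hqm
  have hqw : (q : ℤ) ∣ ((orderOf h / p : ℕ) : ℤ) := by
    rw [Int.natCast_dvd_natCast]; exact dvd_div_of_ne hq hp hpq.symm hqm hpm
  have hpP := Nat.prime_iff_prime_int.1 hp
  have hqP := Nat.prime_iff_prime_int.1 hq
  obtain ⟨P, hP⟩ : ∃ P : ℤ, P = ((orderOf h / p : ℕ) : ℤ) := ⟨_, rfl⟩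
  obtain ⟨Q, hQ⟩ : ∃ Q : ℤ, Q = ((orderOf h / q : ℕ) : ℤ) := ⟨_, rfl⟩
  rw [← hP] at hp1 hqw
  rw [← hQ] at hq1 hpw
  have key : ∀ i j : ℤ, (p : ℤ) ∣ i * P + j * Q → (p : ℤ) ∣ i := by
    intro i j h1
    have h2 := (dvd_add_left (dvd_mul_of_dvd_right hpw j)).1 h1
    exact (hpP.dvd_or_dvd h2).resolve_right hp1
  have keyq : ∀ i j : ℤ, (q : ℤ) ∣ i * P + j * Q → (q : ℤ) ∣ j := by
    intro i j h1
    have h2 := (dvd_add_right (dvd_mul_of_dvd_right hqw i)).1 h1
    exact (hqP.dvd_or_dvd h2).resolve_right hq1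
  have hp5' : (5 : ℤ) ≤ p := by exact_mod_cast hp5
  have hq2' : (2 : ℤ) ≤ q := by exact_mod_cast hq.two_le
  have hE : ∀ k : Fin 5, ¬ BB h p d ((h ^ (orderOf h / p))⁻¹ ((h ^ ((cc k).1 * P + (cc k).2 * Q)) d)) ∧
      ¬ BB h p d ((h ^ (orderOf h / p)) ((h ^ ((cc k).1 * P + (cc k).2 * Q)) d)) := by
    intro k
    rw [mem_E hdp, ← hP]
    obtain ⟨h1, h2, h3⟩ := cc_fst k
    constructor
    · intro h4
      have h5 : (cc k).1 * P + (cc k).2 * Q - P = ((cc k).1 - 1) * P + (cc k).2 * Q := by ring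
      rw [h5] at h4
      exact not_dvd_small (by omega) (by omega) (by omega) (key _ _ h4)
    · intro h4
      have h5 : (cc k).1 * P + (cc k).2 * Q + P = ((cc k).1 + 1) * P + (cc k).2 * Q := by ring
      rw [h5] at h4
      exact not_dvd_small (by omega) (by omega) (by omega) (key _ _ h4)
  refine block2 hn h9 IH hsq hp hq hpq (by omega) hdp hdq ?_ ?_
  · let f : Fin 5 → {a // ¬ BB h p d ((h ^ (orderOf h / p))⁻¹ a) ∧ ¬ BB h p d ((h ^ (orderOf h / p)) a)} :=
      fun k => ⟨(h ^ ((cc k).1 * P + (cc k).2 * Q)) d, hE k⟩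
    have hf : Function.Injective f := by
      intro k l hkl
      have h1 : (h ^ ((cc k).1 * P + (cc k).2 * Q)) d = (h ^ ((cc l).1 * P + (cc l).2 * Q)) d :=
        congrArg Subtype.val hkl
      have h2 := dvd_of_eq hdp h1
      have h3 := dvd_of_eq hdq h1
      have h4 : (cc k).1 * P + (cc k).2 * Q - ((cc l).1 * P + (cc l).2 * Q) =
          ((cc k).1 - (cc l).1) * P + ((cc k).2 - (cc l).2) * Q := by ring
      rw [h4] at h2 h3
      have h5 := key _ _ h2
      have h6 := keyq _ _ h3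
      have a1 := cc_fst k
      have a2 := cc_fst l
      have a3 := cc_snd k
      have a4 := cc_snd l
      apply cc_inj
      apply Prod.ext
      · by_contra hne
        exact not_dvd_small (by omega) (by omega) (by omega) h5
      · by_contra hne
        exact not_dvd_small (by omega) (by omega) (by omega) h6
    simpa using Fintype.card_le_of_injective f hf
  · refine ⟨(h ^ ((cc 2).1 * P + (cc 2).2 * Q)) d, ?_, hE 2⟩
    rw [BB_zpow hdp]
    intro h1
    have h2 := key _ _ h1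
    have h3 : (cc 2).1 = 2 := rfl
    rw [h3] at h2
    exact not_dvd_small (by omega) (by omega) (by omega) h2

/-- an invariant set of six points with a transitive action -/
theorem case_six {n : ℕ} (hn : Fintype.card α = n) (h9 : 9 ≤ n) (IH : IHn.{u} n) (hsq : Squarefree (orderOf h))
    {D : α → Prop} [DecidablePred D] (hD : ∀ a, D (h a) ↔ D a) (h6 : Fintype.card {a // D a} = 6)
    (htr : ∀ a b, (h.subtypePerm hD).SameCycle a b) : RegAll h := by
  have hm : orderOf (h.subtypePerm hD) = 6 := by rw [order_of_trans htr (by omega), h6]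
  obtain ⟨⟨d, hd0⟩, -⟩ : ∃ a : {a // D a}, a ∈ (Finset.univ : Finset {a // D a}) :=
    Finset.card_pos.1 (by rw [Finset.card_univ]; omega)
  have hDz : ∀ (N : ℤ) (a : α), D a → D ((h ^ N) a) := by
    intro N a ha
    have h1 := ((h.subtypePerm hD ^ N) ⟨a, ha⟩).2
    rw [subtypePerm_zpow] at h1
    exact h1
  have hd : ∀ N : ℤ, (h ^ N) d = d → (6 : ℤ) ∣ N := by
    intro N hN
    have h1 : ((orderOf (h.subtypePerm hD) : ℕ) : ℤ) ∣ N := by
      rw [orderOf_dvd_iff_zpow_eq_one]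
      apply dvd_of_trans htr (b := ⟨d, hd0⟩)
      rw [subtypePerm_zpow]
      exact Subtype.ext hN
    rw [hm] at h1
    exact h1
  have hdp : ∀ N : ℤ, (h ^ N) d = d → ((3 : ℕ) : ℤ) ∣ N := fun N hN => by
    have := hd N hN
    push_cast
    omega
  have hdq : ∀ N : ℤ, (h ^ N) d = d → ((2 : ℕ) : ℤ) ∣ N := fun N hN => by
    have := hd N hN
    push_cast
    omega
  have hBD : ∀ a, BB h 3 d a → D a := by
    intro a ha
    obtain ⟨N, -, rfl⟩ := BB_exists ha
    exact hDz N d hd0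
  have hBD1 : ∀ a, BB h 3 d ((h ^ (orderOf h / 3))⁻¹ a) → D a := by
    intro a ha
    have h1 := hDz ((orderOf h / 3 : ℕ) : ℤ) _ (hBD _ ha)
    rw [zpow_natCast, ais] at h1
    exact h1
  have hBD2 : ∀ a, BB h 3 d ((h ^ (orderOf h / 3)) a) → D a := by
    intro a ha
    have h1 := hDz (-((orderOf h / 3 : ℕ) : ℤ)) _ (hBD _ ha)
    rw [zpow_neg, zpow_natCast, ias] at h1
    exact h1
  have hpm : 3 ∣ orderOf h := dvd_order hdp
  have hqm : 2 ∣ orderOf h := dvd_order hdq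
  have hp1 : ¬ ((3 : ℕ) : ℤ) ∣ ((orderOf h / 3 : ℕ) : ℤ) := by
    rw [Int.natCast_dvd_natCast]; exact ndvd_div hsq Nat.prime_three hpm
  have hq1 : ¬ ((2 : ℕ) : ℤ) ∣ ((orderOf h / 2 : ℕ) : ℤ) := by
    rw [Int.natCast_dvd_natCast]; exact ndvd_div hsq Nat.prime_two hqm
  have hpw : ((3 : ℕ) : ℤ) ∣ ((orderOf h / 2 : ℕ) : ℤ) := by
    rw [Int.natCast_dvd_natCast]; exact dvd_div_of_ne Nat.prime_three Nat.prime_two (by norm_num) hpm hqm
  refine block2 hn h9 IH hsq Nat.prime_three Nat.prime_two (by norm_num) le_rfl hdp hdq ?_ ?_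
  · rw [Fintype.card_subtype]
    have h1 := Finset.card_filter_add_card_filter_not (s := (Finset.univ : Finset α))
      (fun a => ¬ BB h 3 d ((h ^ (orderOf h / 3))⁻¹ a) ∧ ¬ BB h 3 d ((h ^ (orderOf h / 3)) a))
    rw [Finset.card_univ, hn] at h1
    have hE : ∀ N : ℤ, ((3 : ℕ) : ℤ) ∣ N →
        (¬ BB h 3 d ((h ^ (orderOf h / 3))⁻¹ ((h ^ N) d)) ∧ ¬ BB h 3 d ((h ^ (orderOf h / 3)) ((h ^ N) d))) := by
      intro N hN
      rw [mem_E hdp]
      constructor <;> intro h2 <;> omega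
    have h2 : (Finset.univ.filter fun a => ¬ (¬ BB h 3 d ((h ^ (orderOf h / 3))⁻¹ a) ∧
        ¬ BB h 3 d ((h ^ (orderOf h / 3)) a))) ⊆
        (Finset.univ.filter D) \ {d, (h ^ ((orderOf h / 2 : ℕ) : ℤ)) d} := by
      intro a ha
      rw [Finset.mem_filter] at ha
      rw [Finset.mem_sdiff, Finset.mem_filter]
      refine ⟨⟨Finset.mem_univ _, ?_⟩, ?_⟩
      · by_contra hDa
        exact ha.2 ⟨fun h3 => hDa (hBD1 a h3), fun h3 => hDa (hBD2 a h3)⟩
      · intro h3
        rw [Finset.mem_insert, Finset.mem_singleton] at h3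
        rcases h3 with rfl | rfl
        · exact ha.2 (hE 0 (dvd_zero _))
        · exact ha.2 (hE _ hpw)
    have h3 := Finset.card_le_card h2
    have h4 : ({d, (h ^ ((orderOf h / 2 : ℕ) : ℤ)) d} : Finset α) ⊆ Finset.univ.filter D := by
      intro a ha
      rw [Finset.mem_insert, Finset.mem_singleton] at ha
      rw [Finset.mem_filter]
      refine ⟨Finset.mem_univ _, ?_⟩
      rcases ha with rfl | rfl
      · exact hd0
      · exact hDz _ _ hd0
    have h7 : (Finset.univ.filter D).card = 6 := by rw [← Fintype.card_subtype]; exact h6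
    rw [Finset.card_sdiff_of_subset h4, h7, Finset.card_pair] at h3
    · omega
    · intro h5
      exact hq1 (hdq _ h5.symm)
  · obtain ⟨e, he⟩ : ∃ e, ¬ D e := by
      by_contra hcon
      push Not at hcon
      have h1 : Fintype.card {a // D a} = Fintype.card α := Fintype.card_congr
        (Equiv.subtypeUnivEquiv hcon)
      omega
    exact ⟨e, fun h1 => he (hBD _ h1), fun h1 => he (hBD1 _ h1), fun h1 => he (hBD2 _ h1)⟩

/-- a good invariant set -/
theorem case_inv {n : ℕ} (hn : Fintype.card α = n) (h9 : 9 ≤ n) (IH : IHn.{u} n) (hsq : Squarefree (orderOf h))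
    {D : α → Prop} [DecidablePred D] (hD : ∀ a, D (h a) ↔ D a) (h5 : 5 ≤ Fintype.card {a // D a})
    (hlt : Fintype.card {a // D a} < n)
    (hex : Fintype.card {a // D a} = 6 → ¬ ∀ a b, (h.subtypePerm hD).SameCycle a b) : RegAll h := by
  intro H hN
  obtain ⟨⟨d, hd0⟩, -⟩ : ∃ a : {a // D a}, a ∈ (Finset.univ : Finset {a // D a}) :=
    Finset.card_pos.1 (by rw [Finset.card_univ]; omega)
  have hsq1 : Squarefree (orderOf (h.subtypePerm hD)) := hsq.squarefree_of_dvd (orderOf_subtypePerm_dvd h hD)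
  have hR1 : RegAll (h.subtypePerm hD) := IH _ h5 hlt _ hsq1 hex
  obtain ⟨k, hk⟩ : ∃ k, k = h ^ orderOf (h.subtypePerm hD) := ⟨_, rfl⟩
  have hkD : ∀ a, D a → k a = a := by
    intro a ha
    have h1 : (h.subtypePerm hD ^ orderOf (h.subtypePerm hD)) ⟨a, ha⟩ = ⟨a, ha⟩ := by
      rw [pow_orderOf_eq_one]; rfl
    rw [subtypePerm_pow] at h1
    rw [hk]
    exact congrArg Subtype.val h1
  have hk2 : ∀ a, k a ≠ d ↔ a ≠ d := by
    intro a
    constructor
    · rintro h1 rfl; exact h1 (hkD _ hd0)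
    · intro h1 h2
      exact h1 (k.injective (h2.trans (hkD _ hd0).symm))
  have hc2 : Fintype.card {a // a ≠ d} = n - 1 := by
    rw [Fintype.card_subtype_compl, Fintype.card_subtype_eq, hn]
  have hR2 : RegAll (k.subtypePerm (p := fun a => a ≠ d) hk2) := by
    refine IH _ (by omega) (by omega) _ ?_ (fun h1 => by omega)
    refine hsq.squarefree_of_dvd ((orderOf_subtypePerm_dvd _ _).trans ?_)
    rw [hk]
    exact orderOf_pow_dvd _
  obtain ⟨t₁, ht₁, -, hz₁⟩ := restrict k hk2 hR2 hN ∅ (by simp) (one_mem (alternatingGroup α)) (by simp)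
  have hz₁' : ∀ z ∈ Subgroup.zpowers k, t₁⁻¹ * z * t₁ ∈ H → z = 1 := by
    intro z hz hzH
    have h1 := hz₁ z hz hzH
    ext a
    by_cases ha : a = d
    · subst ha
      obtain ⟨j, rfl⟩ := hz
      exact zpow_apply_eq_self_of_apply_eq_self (hkD _ hd0) j
    · exact h1 a ha
  obtain ⟨t, ht, htF, htz⟩ := restrict h hD hR1 hN {z | z ∈ Subgroup.zpowers k ∧ z ≠ 1} (by
      rintro z ⟨⟨j, rfl⟩, -⟩ a ha
      exact zpow_apply_eq_self_of_apply_eq_self (hkD a ha) j) ht₁ (by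
      rintro z ⟨hz, hz1⟩ hzH
      exact hz1 (hz₁' z hz hzH))
  refine ⟨t, ht, fun z hz hzH => ?_⟩
  by_contra hz1
  have h1 := htz z hz hzH
  refine htF z ⟨?_, hz1⟩ hzH
  obtain ⟨j, rfl⟩ := hz
  have h2 : h.subtypePerm hD ^ j = 1 := by
    rw [subtypePerm_zpow]
    ext a
    exact h1 a a.2
  obtain ⟨i, rfl⟩ := orderOf_dvd_iff_zpow_eq_one.2 h2
  change h ^ ((orderOf (h.subtypePerm hD) : ℤ) * i) ∈ _
  rw [zpow_mul, zpow_natCast, ← hk]
  exact ⟨i, rfl⟩

end

/-- the induction step -/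
theorem step {n : ℕ} (hn : Fintype.card α = n) (h9 : 9 ≤ n) (IH : IHn.{u} n) (h : Perm α)
    (hsq : Squarefree (orderOf h)) : RegAll h := by
  by_cases htr : ∀ a b, h.SameCycle a b
  · exact case_trans hn h9 IH hsq htr
  push Not at htr
  obtain ⟨a, b, hab⟩ := htr
  have main : ∀ (D : α → Prop) [DecidablePred D] (hD : ∀ a, D (h a) ↔ D a), (∃ a, ¬ D a) →
      5 ≤ Fintype.card {a // D a} → RegAll h := by
    intro D _ hD hne h5
    by_cases hex : Fintype.card {a // D a} = 6 ∧ ∀ a b, (h.subtypePerm hD).SameCycle a b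
    · exact case_six hn h9 IH hsq hD hex.1 hex.2
    · push Not at hex
      refine case_inv hn h9 IH hsq hD h5 ?_ (fun h6 => ?_)
      · obtain ⟨a, ha⟩ := hne
        rw [← hn]
        exact Fintype.card_subtype_lt ha
      · have := hex h6
        push Not
        exact this
  have h1 := Fintype.card_subtype_compl (fun c => h.SameCycle a c)
  have h2 := Fintype.card_subtype_le (fun c => h.SameCycle a c)
  by_cases h5 : 5 ≤ Fintype.card {c // h.SameCycle a c}
  · exact main _ (fun c => sameCycle_apply_right) ⟨b, hab⟩ h5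
  · refine main (fun c => ¬ h.SameCycle a c) (fun c => not_congr sameCycle_apply_right) ⟨a, fun h => h (SameCycle.refl _ _)⟩ ?_
    omega

/-- **main theorem P_N** -/
theorem regAll : ∀ (n : ℕ) (α : Type u) [Fintype α] [DecidableEq α], Fintype.card α = n → 5 ≤ n →
    ∀ h : Perm α, Squarefree (orderOf h) → (n = 6 → ¬ ∀ a b, h.SameCycle a b) → RegAll h := by
  intro n
  induction n using Nat.strong_induction_on with
  | _ n ih =>
    intro α _ _ hn h5 h hsq hex
    by_cases h8 : n ≤ 8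
    · exact small (by omega) (by omega) h (by rw [hn]; exact hex)
    · refine step hn (by omega) ?_ h hsq
      intro β _ _ hβ5 hβn f hf hfe
      exact ih _ hβn β rfl hβ5 f hf hfe

end Cfsg.Agent.H884.An
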