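import Cfsg.Agent.H884.An.PN2

/-!
# S3509, alternating socle: primitive stabilisers (helper884)
-/

set_option autoImplicit false
set_option linter.unusedSectionVars false

namespace Cfsg.Agent.H884.An

open Equiv Equiv.Perm
open Cfsg.Agent.H884.Ex (exists_prime_pow)

universe u

variable {α : Type u} [Fintype α] [DecidableEq α]

/-- subgroups without 3-cycles in the derived subgroup: every element has a regular point -/
theorem reg_n3 (h5 : 5 ≤ Fintype.card α) (h6 : Fintype.card α ≠ 6) (L : Subgroup (Perm α)) (hN : N3 L)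
    (g : Perm α) : ∃ s ∈ alternatingGroup α, ∀ z ∈ Subgroup.zpowers g, s * z * s⁻¹ ∈ L → z = 1 := by
  have ho : 0 < orderOf g := orderOf_pos g
  obtain ⟨m, hm⟩ : ∃ m, m = ∏ p ∈ (orderOf g).primeFactors, p := ⟨_, rfl⟩
  have hmd : m ∣ orderOf g := hm ▸ Nat.prod_primeFactors_dvd _
  have hm0 : 0 < m := Nat.pos_of_dvd_of_pos hmd ho
  obtain ⟨h, hh⟩ : ∃ h, h = g ^ (orderOf g / m) := ⟨_, rfl⟩
  have hoh : orderOf h = m := by
    rw [hh, orderOf_pow_of_dvd (Nat.div_pos (Nat.le_of_dvd ho hmd) hm0).ne' (Nat.div_dvd_of_dvd hmd),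
      Nat.div_div_self hmd ho.ne']
  have hsq : Squarefree (orderOf h) := by
    rw [hoh, hm]
    refine Finset.squarefree_prod_of_pairwise_isCoprime ?_ ?_
    · intro p hp q hq hpq
      rw [Finset.mem_coe] at hp hq
      exact Nat.coprime_iff_isRelPrime.1 ((Nat.coprime_primes (Nat.prime_of_mem_primeFactors hp)
        (Nat.prime_of_mem_primeFactors hq)).2 hpq)
    · intro p hp
      exact (Nat.prime_of_mem_primeFactors hp).prime.squarefree
  obtain ⟨t, ht, htz⟩ := regAll _ α rfl h5 h hsq (fun h => absurd h h6) L hN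
  refine ⟨t⁻¹, inv_mem ht, fun z hz hzL => ?_⟩
  rw [inv_inv] at hzL
  by_contra hz1
  obtain ⟨r, hr, hrd, hrz⟩ := exists_prime_pow hz hz1
  have hrH : t⁻¹ * g ^ (orderOf g / r) * t ∈ L := by
    have h1 : Subgroup.zpowers z ≤ cjg t L := by
      rw [Subgroup.zpowers_le]; exact mem_cjg.2 hzL
    exact mem_cjg.1 (h1 hrz)
  have hrm : r ∣ m := by
    rw [hm]
    exact Finset.dvd_prod_of_mem _ (Nat.mem_primeFactors.2 ⟨hr, hrd, ho.ne'⟩)
  have h1 : g ^ (orderOf g / r) ∈ Subgroup.zpowers h := by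
    obtain ⟨k, hk⟩ := hrm
    obtain ⟨c, hc⟩ := hmd
    have hc1 : orderOf g / m = c := by rw [hc]; exact Nat.mul_div_cancel_left _ hm0
    have hc2 : orderOf g / r = c * k := by
      rw [hc, hk, mul_assoc, Nat.mul_div_cancel_left _ hr.pos, mul_comm]
    rw [hc2, pow_mul, hh, hc1]
    exact Subgroup.npow_mem_zpowers _ _
  have h2 := htz _ h1 hrH
  have h3 := orderOf_dvd_of_pow_eq_one h2
  have h4 := Nat.le_of_dvd (Nat.div_pos (Nat.le_of_dvd ho hrd) hr.pos) h3
  have h5 := Nat.div_lt_self ho hr.one_lt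
  omega

/-- Jordan -/
theorem n3_of_prim {L : Subgroup (Perm α)} (hL : MulAction.IsPreprimitive L α) (hA : ¬ alternatingGroup α ≤ L) :
    N3 L := by
  intro σ hσ h3
  have h1 : (⁅L, L⁆ : Subgroup (Perm α)) ≤ L := 
    Subgroup.commutator_le.2 fun a ha b hb => mul_mem (mul_mem (mul_mem ha hb) (inv_mem ha)) (inv_mem hb)
  exact hA (alternatingGroup_le_of_isPreprimitive_of_isThreeCycle_mem hL h3 (h1 hσ))

/-- **primitive stabilisers**, all degrees `≥ 5`, `≠ 6` -/
theorem reg_prim5 (h5 : 5 ≤ Fintype.card α) (h6 : Fintype.card α ≠ 6) (L : Subgroup (Equiv.Perm α))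
    (hL : MulAction.IsPreprimitive L α) (hA : ¬ alternatingGroup α ≤ L) (g : Equiv.Perm α) :
    ∃ s ∈ alternatingGroup α, ∀ z ∈ Subgroup.zpowers g, s * z * s⁻¹ ∈ L → z = 1 :=
  reg_n3 h5 h6 L (n3_of_prim hL hA) g

/-- **primitive stabilisers** (interface of helper711 / helper390) -/
theorem reg_prim (h9 : 9 ≤ Fintype.card α) (L : Subgroup (Equiv.Perm α)) (hL : MulAction.IsPreprimitive L α)
    (hA : ¬ alternatingGroup α ≤ L) (g : Equiv.Perm α) :
    ∃ s ∈ alternatingGroup α, ∀ z ∈ Subgroup.zpowers g, s * z * s⁻¹ ∈ L → z = 1 :=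
  reg_prim5 (by omega) (by omega) L hL hA g

end Cfsg.Agent.H884.An
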